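import Cfsg.Agent.ChevalleyStructure.SparseEng
import Cfsg.Agent.H238.E8.Frame
import Mathlib.LinearAlgebra.Matrix.ToLin
import Mathlib.Tactic

/-!
# Sparse vectors over `F₃` in the 248-dimensional module of `E₈` (helper65)

A sparse vector is a sorted list of pairs `(code, coefficient)`; `app r c` applies the root element `x_r(c)`, `comb T`
applies the linear map with the columns `T`.
-/

set_option autoImplicit false
set_option linter.unusedSectionVars false

namespace Cfsg.Agent.H65.E8L.Eng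

open Cfsg Cfsg.Lie Cfsg.Agent.ChevalleyStructure.SparseEng Matrix

/-- the module -/
abbrev V : Type := chevE8.Idx → ZMod 3

/-- the basis vector with code `k` -/
abbrev bv (k : ℕ) : V := bvec chevE8 (ZMod 3) k

/-- value of a sparse vector -/
def spv (l : List (ℕ × ℕ)) : V := (l.map fun a => ((a.2 : ℕ) : ZMod 3) • bv a.1).sum

@[simp] theorem spv_nil : spv [] = 0 := rfl

theorem spv_cons (a : ℕ × ℕ) (l : List (ℕ × ℕ)) : spv (a :: l) = ((a.2 : ℕ) : ZMod 3) • bv a.1 + spv l := by
  simp [spv]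

/-- add `c` times the basis vector `k` -/
def ins (k c : ℕ) : List (ℕ × ℕ) → List (ℕ × ℕ)
  | [] => if c % 3 = 0 then [] else [(k, c % 3)]
  | a :: l =>
    if a.1 = k then (if (a.2 + c) % 3 = 0 then l else (k, (a.2 + c) % 3) :: l)
    else if k < a.1 then (if c % 3 = 0 then a :: l else (k, c % 3) :: a :: l)
    else a :: ins k c l

theorem cast_mod (c : ℕ) : ((c % 3 : ℕ) : ZMod 3) = c := ZMod.natCast_mod c 3

theorem cast_zero {c : ℕ} (h : c % 3 = 0) : (c : ZMod 3) = 0 := by rw [← cast_mod, h, Nat.cast_zero]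

theorem spv_ins (k c : ℕ) (l : List (ℕ × ℕ)) : spv (ins k c l) = (c : ZMod 3) • bv k + spv l := by
  induction l with
  | nil =>
    unfold ins
    split_ifs with h
    · rw [cast_zero h, zero_smul, zero_add]
    · rw [spv_cons, cast_mod]
  | cons a l ih =>
    unfold ins
    split_ifs with h1 h2 h3 h4
    · rw [spv_cons, ← h1, ← add_assoc, ← add_smul]
      have h5 : ((c : ℕ) : ZMod 3) + ((a.2 : ℕ) : ZMod 3) = 0 := by
        rw [add_comm, ← Nat.cast_add, cast_zero h2]
      rw [h5, zero_smul, zero_add]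
    · rw [spv_cons, spv_cons, ← h1, ← add_assoc, ← add_smul, cast_mod, Nat.cast_add, add_comm (c : ZMod 3)]
    · rw [cast_zero h4, zero_smul, zero_add]
    · rw [spv_cons, cast_mod]
    · rw [spv_cons, ih, spv_cons]
      abel

/-- residue of an integer -/
def z3 (z : ℤ) : ℕ := (z % 3).toNat

theorem cast_z3 (z : ℤ) : ((z3 z : ℕ) : ZMod 3) = (z : ZMod 3) := by
  have h1 : 0 ≤ z % 3 := Int.emod_nonneg _ (by norm_num)
  have h2 : ((z3 z : ℕ) : ℤ) = z % 3 := Int.toNat_of_nonneg h1
  have h3 : (((z3 z : ℕ) : ℤ) : ZMod 3) = ((z % 3 : ℤ) : ZMod 3) := by rw [h2]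
  rw [Int.cast_natCast] at h3
  rw [h3]
  exact ZMod.intCast_mod z 3

/-- `a.2` times the image of the basis vector `a.1` under `x_r(c)`, added to `acc` -/
def img (r c : ℕ) (a : ℕ × ℕ) (acc : List (ℕ × ℕ)) : List (ℕ × ℕ) :=
  (act chevE8 r a.1).foldr (fun b acc => ins b.1 (a.2 * z3 b.2.1 * c ^ b.2.2) acc) acc

theorem spv_img (r c : ℕ) (a : ℕ × ℕ) (acc : List (ℕ × ℕ)) :
    spv (img r c a acc) = ((a.2 : ℕ) : ZMod 3) • (chevE8.x (ZMod 3) r (c : ZMod 3)).mulVec (bv a.1) + spv acc := by
  rw [xMat_mulVec]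
  unfold img evalAct
  generalize act chevE8 r a.1 = l
  induction l with
  | nil => simp
  | cons b l ih =>
    rw [List.foldr_cons, spv_ins, ih, List.map_cons, List.sum_cons, smul_add, smul_smul, ← add_assoc]
    congr 2
    push_cast
    rw [cast_z3, mul_assoc]

/-- apply a root element -/
def app (r c : ℕ) (l : List (ℕ × ℕ)) : List (ℕ × ℕ) := l.foldr (img r c) []

theorem spv_app (r c : ℕ) (l : List (ℕ × ℕ)) :
    spv (app r c l) = (chevE8.x (ZMod 3) r (c : ZMod 3)).mulVec (spv l) := by
  induction l with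
  | nil => simp [app]
  | cons a l ih =>
    have h : app r c (a :: l) = img r c a (app r c l) := rfl
    rw [h, spv_img, ih, spv_cons, Matrix.mulVec_add, Matrix.mulVec_smul]

/-- apply a word -/
def appW (w : List (ℕ × ℕ)) (l : List (ℕ × ℕ)) : List (ℕ × ℕ) := w.foldr (fun p l => app p.1 p.2 l) l

theorem spv_appW (w l : List (ℕ × ℕ)) :
    spv (appW w l) = (chevE8.wordMat (ZMod 3) (w.map fun p => (p.1, (p.2 : ZMod 3)))).mulVec (spv l) := by
  induction w with
  | nil => simp [appW, ChevalleyDatum.wordMat]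
  | cons p w ih =>
    have h : appW (p :: w) l = app p.1 p.2 (appW w l) := rfl
    rw [h, spv_app, ih]
    simp [ChevalleyDatum.wordMat, Matrix.mulVec_mulVec]

/-! ### linear maps given by columns -/

/-- the code of an index -/
def cd : chevE8.Idx → ℕ
  | Sum.inl i => i.val
  | Sum.inr s => 8 + s.val

theorem cd_lt (i : chevE8.Idx) : cd i < 248 := by
  rcases i with i | s
  · have h : i.val < 8 := i.2
    show i.val < 248
    omega
  · have h : s.val < 240 := s.2
    show 8 + s.val < 248
    omega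

theorem bv_cd (i : chevE8.Idx) : bv (cd i) = Pi.single i 1 := by
  ext j
  rcases i with i | s <;> rcases j with j | u
  · show (if j.val = i.val then (1 : ZMod 3) else 0) = _
    by_cases h : j = i
    · subst h; simp
    · have h' : j.val ≠ i.val := fun e => h (Fin.ext e)
      rw [if_neg h', Pi.single_eq_of_ne (fun e => h (Sum.inl_injective e))]
  · have hi : i.val < 8 := i.2
    show (if 8 + u.val = i.val then (1 : ZMod 3) else 0) = _
    rw [if_neg (by omega), Pi.single_eq_of_ne (by simp)]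
  · have hj : j.val < 8 := j.2
    show (if j.val = 8 + s.val then (1 : ZMod 3) else 0) = _
    rw [if_neg (by omega), Pi.single_eq_of_ne (by simp)]
  · show (if 8 + u.val = 8 + s.val then (1 : ZMod 3) else 0) = _
    by_cases h : u = s
    · subst h; simp
    · have h' : u.val ≠ s.val := fun e => h (Fin.ext e)
      rw [if_neg (by omega), Pi.single_eq_of_ne (fun e => h (Sum.inr_injective e))]

theorem exists_cd {k : ℕ} (hk : k < 248) : ∃ i : chevE8.Idx, cd i = k := by
  by_cases h : k < 8
  · exact ⟨Sum.inl ⟨k, h⟩, rfl⟩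
  · exact ⟨Sum.inr ⟨k - 8, by show k - 8 < 240; omega⟩, by show 8 + (k - 8) = k; omega⟩

theorem eq_sum (v : V) : v = ∑ i, v i • bv (cd i) := by
  ext j
  rw [Finset.sum_apply, Finset.sum_eq_single j]
  · rw [Pi.smul_apply, bv_cd, Pi.single_eq_same, smul_eq_mul, mul_one]
  · intro b _ hb
    rw [Pi.smul_apply, bv_cd, Pi.single_eq_of_ne hb.symm, smul_zero]
  · intro h
    exact absurd (Finset.mem_univ j) h

/-- the linear map with the columns `T` -/
noncomputable def R (T : ℕ → List (ℕ × ℕ)) : V →ₗ[ZMod 3] V :=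
  ∑ i : chevE8.Idx, (LinearMap.proj i).smulRight (spv (T (cd i)))

theorem R_apply (T : ℕ → List (ℕ × ℕ)) (v : V) : R T v = ∑ i, v i • spv (T (cd i)) := by
  unfold R
  rw [LinearMap.sum_apply]
  rfl

theorem R_bv (T : ℕ → List (ℕ × ℕ)) {k : ℕ} (hk : k < 248) : R T (bv k) = spv (T k) := by
  obtain ⟨i, rfl⟩ := exists_cd hk
  rw [R_apply, Finset.sum_eq_single i]
  · rw [bv_cd, Pi.single_eq_same, one_smul]
  · intro b _ hb
    rw [bv_cd, Pi.single_eq_of_ne hb, zero_smul]
  · intro h
    exact absurd (Finset.mem_univ i) h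

/-- add the image of the sparse vector `l` -/
def comb (T : ℕ → List (ℕ × ℕ)) (l acc : List (ℕ × ℕ)) : List (ℕ × ℕ) :=
  l.foldr (fun a acc => (T a.1).foldr (fun b acc => ins b.1 (a.2 * b.2) acc) acc) acc

theorem spv_fold (c : ℕ) (m acc : List (ℕ × ℕ)) :
    spv (m.foldr (fun b acc => ins b.1 (c * b.2) acc) acc) = (c : ZMod 3) • spv m + spv acc := by
  induction m with
  | nil => simp
  | cons b m ih =>
    rw [List.foldr_cons, spv_ins, ih, spv_cons, smul_add, smul_smul, ← add_assoc]
    congr 2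
    push_cast
    rfl

theorem spv_comb (T : ℕ → List (ℕ × ℕ)) (l acc : List (ℕ × ℕ)) (h : ∀ a ∈ l, a.1 < 248) :
    spv (comb T l acc) = R T (spv l) + spv acc := by
  induction l with
  | nil => simp [comb]
  | cons a l ih =>
    have e : comb T (a :: l) acc = (T a.1).foldr (fun b acc => ins b.1 (a.2 * b.2) acc) (comb T l acc) := rfl
    rw [e, spv_fold, ih fun b hb => h b (List.mem_cons_of_mem _ hb), spv_cons, map_add, map_smul,
      R_bv T (h a List.mem_cons_self), add_assoc]

end Cfsg.Agent.H65.E8L.Eng
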