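import Cfsg.Agent.H65.E8L.Eng
import Cfsg.Agent.H971.RV.Lie
import Mathlib.Algebra.Module.LinearMap.End

/-!
# The adjoint map of `L(E₈)` over `F₃` (helper65, S5925)
-/

set_option autoImplicit false
set_option linter.unusedSectionVars false
set_option maxRecDepth 100000

namespace Cfsg.Agent.H65.E8L.Ad

open Cfsg Cfsg.Lie Matrix Cfsg.Agent.H971.RV
open Cfsg.Agent.ChevalleyStructure.LieAbs Cfsg.Agent.ChevalleyStructure.LieAut
open Cfsg.Agent.H65.E8L.Eng

/-- the adjoint map -/
noncomputable def adE : V →ₗ[ZMod 3] Module.End (ZMod 3) V where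
  toFun u := (adv (adR chevE8 (ZMod 3)) u).mulVecLin
  map_add' u v := by
    apply LinearMap.ext
    intro w
    exact br_add_left (D := chevE8) (k := ZMod 3) u v w
  map_smul' a u := by
    apply LinearMap.ext
    intro w
    exact br_smul_left (D := chevE8) (k := ZMod 3) a u w

theorem adE_apply (u v : V) : adE u v = br chevE8 (ZMod 3) u v := rfl

theorem adE_eq (u v : V) : adE u v = adv (adR chevE8 (ZMod 3)) u *ᵥ v := rfl

theorem e8mem : chevE8 ∈ [chevG2, chevB2, chevD4, chevF4, chevE6, chevE7, chevE8] := by simp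

/-- the group acts by automorphisms -/
theorem adE_group (g : ↥(chevE8.group (ZMod 3))) (u v : V) :
    ((g : GL chevE8.Idx (ZMod 3)) : Matrix chevE8.Idx chevE8.Idx (ZMod 3)) *ᵥ adE u v =
      adE (((g : GL chevE8.Idx (ZMod 3)) : Matrix chevE8.Idx chevE8.Idx (ZMod 3)) *ᵥ u)
        (((g : GL chevE8.Idx (ZMod 3)) : Matrix chevE8.Idx chevE8.Idx (ZMod 3)) *ᵥ v) :=
  rho_br e8mem g u v

/-- the Jacobi identity -/
theorem adE_jac (u v w : V) : adE u (adE v w) = adE (adE u v) w + adE v (adE u w) := br_br e8mem u v w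

theorem commute_of {u v : V} (h : adE u v = 0) : Commute (adE u) (adE v) := by
  apply LinearMap.ext
  intro w
  show adE u (adE v w) = adE v (adE u w)
  rw [adE_jac, h, map_zero, LinearMap.zero_apply, zero_add]

end Cfsg.Agent.H65.E8L.Ad
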