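import Cfsg.Agent.H65.E8L.Eng
import Cfsg.Agent.H65.E8L.Dat

/-!
# Kernel checks for the vectors fixed by `x₀, y₀` (helper65, S5925)
-/

set_option autoImplicit false

namespace Cfsg.Agent.H65.E8L.Chk

open Cfsg.Agent.H65.E8L.Eng Cfsg.Agent.H65.E8L.Dat

/-- column `k` of the table -/
def g (T : List (List (ℕ × ℕ))) (k : ℕ) : List (ℕ × ℕ) := T.getD k []

/-- equality of lists of pairs -/
def eqL : List (ℕ × ℕ) → List (ℕ × ℕ) → Bool
  | [], [] => true
  | a :: l, b :: m => a.1.beq b.1 && (a.2.beq b.2 && eqL l m)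
  | _, _ => false

theorem eqL_eq : ∀ {l m : List (ℕ × ℕ)}, eqL l m = true → l = m
  | [], [], _ => rfl
  | a :: l, b :: m, h => by
    unfold eqL at h
    rw [Bool.and_eq_true, Bool.and_eq_true] at h
    obtain ⟨h1, h2, h3⟩ := h
    rw [eqL_eq h3, Prod.ext (Nat.eq_of_beq_eq_true h1) (Nat.eq_of_beq_eq_true h2)]
  | [], _ :: _, h => by simp [eqL] at h
  | _ :: _, [], h => by simp [eqL] at h

/-- columns of a word -/
def colOK (w : List (ℕ × ℕ)) (T : List (List (ℕ × ℕ))) (k : ℕ) : Bool := eqL (appW w [(k, 1)]) (g T k)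

/-- all the codes of a list are less than 248 -/
def ltOK (l : List (ℕ × ℕ)) : Bool := l.all fun a => decide (a.1 < 248)

/-- membership in `sl₅ + sl₅` -/
def inL (s : ℕ) : Bool := l0.any fun a => a.beq s

/-- the coefficients of the free coordinates -/
def nf (s : ℕ) : List (ℕ × ℕ) :=
  if s = 170 then [(0, 0), (1, 1), (2, 2), (3, 2)] else if s = 171 then [(0, 2), (1, 0), (2, 1), (3, 2)]
  else if s = 172 then [(0, 2), (1, 0), (2, 0), (3, 0)] else if s = 177 then [(0, 2), (1, 2), (2, 2), (3, 2)]
  else [(0, 0), (1, 0), (2, 0), (3, 0)]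

/-- the first certificate: `R (x - 1)` is the projection to the codes outside `sl₅ + sl₅` -/
def ok1 (s : ℕ) : Bool :=
  ltOK (ins s 2 (g tX s)) && eqL (comb (g tR) (ins s 2 (g tX s)) []) (if inL s then [] else [(s, 1)])

/-- the second certificate -/
def ok2 (s : ℕ) : Bool :=
  ltOK (ins s 2 (g tY s)) &&
    eqL (comb (g t1) (ins s 2 (g tX s)) (comb (g t2) (ins s 2 (g tY s)) [])) (g t3 s)

/-- the free coordinates -/
def ok3 (s : ℕ) : Bool := eqL (ins s 1 (comb (fun _ => g t3 s) [(0, 2)] [])) (comb (g bl) (nf s) [])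

theorem x0 : ((List.range' 0 40).all (colOK wX tX)) = true := by decide +kernel
theorem x1 : ((List.range' 40 52).all (colOK wX tX)) = true := by decide +kernel
theorem x2 : ((List.range' 92 52).all (colOK wX tX)) = true := by decide +kernel
theorem x3 : ((List.range' 144 52).all (colOK wX tX)) = true := by decide +kernel
theorem x4 : ((List.range' 196 52).all (colOK wX tX)) = true := by decide +kernel
theorem y0 : ((l0.take 24).all (colOK wY tY)) = true := by decide +kernel
theorem y1 : ((l0.drop 24).all (colOK wY tY)) = true := by decide +kernel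
theorem c1 : ((List.range 248).all ok1) = true := by decide +kernel
theorem c2 : (l0.all ok2) = true := by decide +kernel
theorem c3 : (l0.all ok3) = true := by decide +kernel

end Cfsg.Agent.H65.E8L.Chk
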