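import Cfsg.Agent.H65.E8L.AdEng
import Cfsg.Agent.H65.E8L.AdDat0
import Cfsg.Agent.H65.E8L.AdDat1
import Cfsg.Agent.H65.E8L.Chk

/-!
# Kernel checks of the cubes of `ad b_i` (helper65, S5925)
-/

set_option autoImplicit false

namespace Cfsg.Agent.H65.E8L.AdChk

open Cfsg.Agent.H65.E8L.Eng Cfsg.Agent.H65.E8L.Dat Cfsg.Agent.H65.E8L.AdDat Cfsg.Agent.H65.E8L.Chk
open Cfsg.Agent.H65.E8L.AdEng

/-- a column of `ad b` -/
def colB (b : List (ℕ × ℕ)) (T : List (List (ℕ × ℕ))) (k : ℕ) : Bool :=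
  match adB b k with
  | some m => eqL m (g T k)
  | none => false

/-- a column of the cube -/
def cubOK (T T' : List (List (ℕ × ℕ))) (k : ℕ) : Bool :=
  ltOK (g T k) && (ltOK (comb (g T) (g T k) []) && eqL (comb (g T) (comb (g T) (g T k) []) []) (g T' k))

/-- `[b, b'] = 0` -/
def comOK (T : List (List (ℕ × ℕ))) (b : List (ℕ × ℕ)) : Bool := ltOK b && eqL (comb (g T) b []) []

theorem m : comOK tb0 (g bl 0) = true ∧ comOK tb0 (g bl 1) = true ∧ comOK tb0 (g bl 2) = true ∧
    comOK tb0 (g bl 3) = true ∧ comOK tb1 (g bl 1) = true ∧ comOK tb1 (g bl 2) = true ∧ comOK tb1 (g bl 3) = true ∧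
    comOK tb2 (g bl 2) = true ∧ comOK tb2 (g bl 3) = true ∧ comOK tb3 (g bl 3) = true := by decide +kernel

theorem q0 : ((List.range 248).all (cubOK tb0 tb2)) = true := by decide +kernel
theorem q1 : ((List.range 248).all (cubOK tb1 tb0)) = true := by decide +kernel
theorem q2 : ((List.range 248).all (cubOK tb2 tb3)) = true := by decide +kernel
theorem q3 : ((List.range 248).all (cubOK tb3 tb1)) = true := by decide +kernel

end Cfsg.Agent.H65.E8L.AdChk
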