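import Cfsg.Agent.H65.E8L.AdChk

/-!
# Kernel checks of the columns of `ad b_4` (helper65, S5925)
-/

set_option autoImplicit false

namespace Cfsg.Agent.H65.E8L.AdChk

open Cfsg.Agent.H65.E8L.Dat Cfsg.Agent.H65.E8L.AdDat Cfsg.Agent.H65.E8L.Chk

theorem c3a : ((List.range' 0 83).all (colB (g bl 3) tb3)) = true := by decide +kernel
theorem c3b : ((List.range' 83 83).all (colB (g bl 3) tb3)) = true := by decide +kernel
theorem c3c : ((List.range' 166 82).all (colB (g bl 3) tb3)) = true := by decide +kernel

end Cfsg.Agent.H65.E8L.AdChk
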