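import Cfsg.Agent.H65.E8L.Ad

/-!
# Kernel evaluation of the adjoint map of `L(E₈)` over `F₃` (helper65, S5925)
-/

set_option autoImplicit false
set_option linter.unusedSectionVars false
set_option maxRecDepth 100000

namespace Cfsg.Agent.H65.E8L.AdEng

open Cfsg Cfsg.Lie Matrix Cfsg.Agent.H971.RV
open Cfsg.Agent.ChevalleyStructure Cfsg.Agent.ChevalleyStructure.SparseEng Cfsg.Agent.ChevalleyStructure.Ring
open Cfsg.Agent.ChevalleyStructure.LieAbs Cfsg.Agent.ChevalleyStructure.LieAut Cfsg.Agent.ChevalleyStructure.JacMain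
open Cfsg.Agent.H65.E8L.Eng Cfsg.Agent.H65.E8L.Ad

theorem lac8 : Cfsg.Agent.H512.LinFour.IdealF.Lac chevE8 := ⟨by simp, by decide +kernel, by decide +kernel⟩

/-- the Lie action of `e_r` from the action of `x_r(± 1)` -/
theorem adK_of {r : ℕ} (hr : r < chevE8.nroots) {v a b : V}
    (h : ∀ t : ZMod 3, chevE8.x (ZMod 3) r t *ᵥ v = v + t • a + t ^ 2 • b) : adK chevE8 (ZMod 3) r *ᵥ v = a := by
  have h1 := h 1
  have h3 := h (-1)
  rw [Cfsg.Agent.H971.RV.x_eq_three lac8 hr] at h1 h3
  simp only [Matrix.add_mulVec, Matrix.one_mulVec, Matrix.smul_mulVec, one_smul, one_pow, neg_one_sq, neg_smul,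
    Matrix.neg_mulVec] at h1 h3
  have h2 : (2 : ZMod 3) ≠ 0 := by decide
  have h4 : (2 : ZMod 3) • (adK chevE8 (ZMod 3) r *ᵥ v) = (2 : ZMod 3) • a := by
    have h5 := congrArg₂ (fun x y => x - y) h1 h3
    have e1 : ∀ x y z : V, x + y + z - (x + -y + z) = (2 : ZMod 3) • y := by
      intro x y z
      rw [two_smul]; abel
    rw [e1, e1] at h5
    exact h5
  have h6 := congrArg (fun x => (2 : ZMod 3)⁻¹ • x) h4
  simp only [smul_smul, inv_mul_cancel₀ h2, one_smul] at h6
  exact h6

/-- the terms with exponent `j` -/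
def sx (j : ℕ) (l : List (ℕ × ℤ × ℕ)) : V := ((l.filter fun b => b.2.2 == j).map fun b => ((b.2.1 : ℤ) : ZMod 3) • bv b.1).sum

theorem evalAct_split (t : ZMod 3) (l : List (ℕ × ℤ × ℕ)) (h : ∀ b ∈ l, b.2.2 = 1 ∨ b.2.2 = 2) :
    evalAct (D := chevE8) t l = t • sx 1 l + t ^ 2 • sx 2 l := by
  induction l with
  | nil => simp [evalAct, sx]
  | cons b l ih =>
    have ih' := ih fun b hb => h b (List.mem_cons_of_mem _ hb)
    have e0 : evalAct (D := chevE8) t (b :: l) = (((b.2.1 : ℤ) : ZMod 3) * t ^ b.2.2) • bv b.1 + evalAct (D := chevE8) t l := by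
      simp [evalAct]
    rw [e0, ih']
    rcases h b List.mem_cons_self with h1 | h1
    · have e1 : sx 1 (b :: l) = ((b.2.1 : ℤ) : ZMod 3) • bv b.1 + sx 1 l := by
        unfold sx; rw [List.filter_cons_of_pos (by simp [h1]), List.map_cons, List.sum_cons]
      have e2 : sx 2 (b :: l) = sx 2 l := by
        unfold sx; rw [List.filter_cons_of_neg (by simp [h1])]
      rw [e1, e2, h1, pow_one, smul_add, smul_smul, mul_comm t, add_assoc]
    · have e1 : sx 1 (b :: l) = sx 1 l := by
        unfold sx; rw [List.filter_cons_of_neg (by simp [h1])]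
      have e2 : sx 2 (b :: l) = ((b.2.1 : ℤ) : ZMod 3) • bv b.1 + sx 2 l := by
        unfold sx; rw [List.filter_cons_of_pos (by simp [h1]), List.map_cons, List.sum_cons]
      rw [e1, e2, h1, smul_add, smul_smul, mul_comm (t ^ 2)]
      abel

/-- the linear terms of an image -/
def adc (k : ℕ) : List (ℕ × ℤ × ℕ) → Option (List (ℕ × ℕ))
  | [] => none
  | a :: l => if (a.1 == k && a.2.1 == 1 && a.2.2 == 0) && l.all (fun b => b.2.2 == 1 || b.2.2 == 2) then
      some ((l.filter fun b => b.2.2 == 1).map fun b => (b.1, z3 b.2.1)) else none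

theorem spv_z3 (l : List (ℕ × ℤ × ℕ)) : spv (l.map fun b => (b.1, z3 b.2.1)) =
    (l.map fun b => ((b.2.1 : ℤ) : ZMod 3) • bv b.1).sum := by
  induction l with
  | nil => rfl
  | cons b l ih => rw [List.map_cons, spv_cons, ih, List.map_cons, List.sum_cons, cast_z3]

theorem adK_bv {r k : ℕ} (hr : r < chevE8.nroots) {m : List (ℕ × ℕ)} (h : adc k (act chevE8 r k) = some m) :
    adK chevE8 (ZMod 3) r *ᵥ bv k = spv m := by
  have hx := fun t : ZMod 3 => xMat_mulVec (D := chevE8) (F := ZMod 3) r k t
  generalize act chevE8 r k = l at h hx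
  cases l with
  | nil => exact absurd h (by simp [adc])
  | cons a l =>
    rw [adc] at h
    split_ifs at h with h1
    rw [Bool.and_eq_true, Bool.and_eq_true, Bool.and_eq_true, beq_iff_eq, beq_iff_eq, beq_iff_eq] at h1
    obtain ⟨⟨⟨a1, a2⟩, a3⟩, a4⟩ := h1
    have h5 : ∀ b ∈ l, b.2.2 = 1 ∨ b.2.2 = 2 := fun b hb => by
      have := List.all_eq_true.1 a4 b hb
      rw [Bool.or_eq_true, beq_iff_eq, beq_iff_eq] at this
      exact this
    rw [← Option.some_injective _ h, spv_z3]
    refine adK_of hr (b := sx 2 l) fun t => ?_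
    have h6 : (chevE8.x (ZMod 3) r t) *ᵥ bv k = evalAct (D := chevE8) t (a :: l) := hx t
    have e0 : evalAct (D := chevE8) t (a :: l) = (((a.2.1 : ℤ) : ZMod 3) * t ^ a.2.2) • bv a.1 + evalAct (D := chevE8) t l := by
      simp [evalAct]
    rw [h6, e0, evalAct_split t l h5, a1, a2, a3, Int.cast_one, pow_zero, one_mul, one_smul, add_assoc]
    rfl

theorem adH_apply (i : Fin chevE8.rank) (v : V) :
    (∀ k, (adR chevE8 (ZMod 3) (Sum.inl i) *ᵥ v) (Sum.inl k) = 0) ∧
    ∀ s : Fin chevE8.nroots, (adR chevE8 (ZMod 3) (Sum.inl i) *ᵥ v) (Sum.inr s) =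
      (chevE8.cartan i.val s.val : ZMod 3) * v (Sum.inr s) := by
  have e : adR chevE8 (ZMod 3) (Sum.inl i) = Matrix.diagonal (Sum.elim (fun _ => (0 : ZMod 3))
      (fun s : Fin chevE8.nroots => (chevE8.cartan i.val s.val : ZMod 3))) := by
    rw [adR_def, adA_inl]
    unfold adH
    rw [Matrix.diagonal_map (map_zero _)]
    congr 1
    funext a
    rcases a with k | s
    · simp
    · rfl
  rw [e]
  constructor
  · intro k
    rw [Matrix.mulVec_diagonal, Sum.elim_inl, zero_mul]
  · intro s
    rw [Matrix.mulVec_diagonal, Sum.elim_inr]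

/-- the image of the basis vector `k` under `ad` of the basis vector `a` -/
def adX (a k : ℕ) : Option (List (ℕ × ℕ)) :=
  if a < 8 then some (if k < 8 then [] else [(k, z3 (chevE8.cartan a (k - 8)))])
  else if a < 248 then adc k (act chevE8 (a - 8) k) else none

theorem adE_bv {a k : ℕ} (hk : k < 248) {m : List (ℕ × ℕ)} (h : adX a k = some m) : adE (bv a) (bv k) = spv m := by
  unfold adX at h
  split_ifs at h with h1 h2 h3
  · obtain ⟨i, hi⟩ := exists_cd (k := a) (by omega)
    rw [← Option.some_injective _ h, spv_nil, ← hi, bv_cd, adE_eq, adv_single_one]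
    rcases i with i | s
    · obtain ⟨g1, g2⟩ := adH_apply i (bv k)
      funext j
      rcases j with j | u
      · exact g1 j
      · rw [g2 u]
        have : bv k (Sum.inr u) = 0 := by
          show (if 8 + u.val = k then (1 : ZMod 3) else 0) = 0
          rw [if_neg (by omega)]
        rw [this, mul_zero]
        rfl
    · exfalso
      have : 8 + s.val = a := hi
      omega
  · obtain ⟨i, hi⟩ := exists_cd (k := a) (by omega)
    rw [← Option.some_injective _ h, spv_cons, spv_nil, add_zero, cast_z3, ← hi, bv_cd, adE_eq, adv_single_one]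
    rcases i with i | s
    · obtain ⟨g1, g2⟩ := adH_apply i (bv k)
      have hia : i.val = a := hi
      funext j
      rcases j with j | u
      · rw [g1 j, Pi.smul_apply]
        have : bv k (Sum.inl j) = 0 := by
          have hj : j.val < 8 := j.2
          show (if j.val = k then (1 : ZMod 3) else 0) = 0
          rw [if_neg (by omega)]
        rw [this, smul_zero]
      · rw [g2 u, Pi.smul_apply, smul_eq_mul]
        by_cases hu : 8 + u.val = k
        · have e : k - 8 = u.val := by omega
          rw [e]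
          rfl
        · have : bv k (Sum.inr u) = 0 := by
            show (if 8 + u.val = k then (1 : ZMod 3) else 0) = 0
            rw [if_neg hu]
          rw [this, mul_zero, mul_zero]
    · exfalso
      have : 8 + s.val = a := hi
      omega
  · obtain ⟨i, hi⟩ := exists_cd (k := a) h3
    rw [← hi, bv_cd, adE_eq, adv_single_one]
    rcases i with i | s
    · exfalso
      have h4 : i.val < 8 := i.2
      have : i.val = a := hi
      omega
    · have h5 : 8 + s.val = a := hi
      have h6 : a - 8 = s.val := by omega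
      rw [h6] at h
      rw [adR_inr]
      exact adK_bv s.2 h

/-- `ad` of a sparse vector on a basis vector -/
def adB : List (ℕ × ℕ) → ℕ → Option (List (ℕ × ℕ))
  | [], _ => some []
  | a :: b, k => match adX a.1 k, adB b k with
    | some m, some acc => some (m.foldr (fun b acc => ins b.1 (a.2 * b.2) acc) acc)
    | _, _ => none

theorem adE_adB {k : ℕ} (hk : k < 248) : ∀ {b m : List (ℕ × ℕ)}, adB b k = some m → adE (spv b) (bv k) = spv m
  | [], m, h => by
    rw [← Option.some_injective _ h, spv_nil, map_zero, LinearMap.zero_apply]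
  | a :: b, m, h => by
    unfold adB at h
    split at h
    · rename_i m1 acc h1 h2
      rw [← Option.some_injective _ h, spv_fold, spv_cons, map_add, map_smul, LinearMap.add_apply, LinearMap.smul_apply,
        adE_bv hk h1, adE_adB hk h2]
    · exact absurd h (by simp)

end Cfsg.Agent.H65.E8L.AdEng
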