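import Cfsg.Agent.H791.E8L.Rel2
import Mathlib.LinearAlgebra.BilinearMap
import Mathlib.Tactic

/-!
# S5925, box Q (helper65): the orbit sums vanish in the case `y ~ y₀`

`V` over `F₃`, `W` the vectors fixed by `x, y, t`. An invariant form that is nondegenerate on `W` kills the orbit sums
(`12 = 0`). `W` is closed under the `[3]`-power; with the values of the form this makes it nondegenerate.
-/

set_option autoImplicit false
set_option linter.unusedSectionVars false

namespace Cfsg.Agent.H65.E8L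

open Cfsg.Agent.H791.E8L

section
variable {K V : Type*} [Field K] [AddCommGroup V] [Module K V] {x y t : V ≃ₗ[K] V}

/-- **the orbit sums vanish** -/
theorem sig_zero (h : Rel x y t) (h3 : (3 : K) = 0) (B : V →ₗ[K] V →ₗ[K] K)
    (hBx : ∀ u v, B (x u) (x v) = B u v) (hBt : ∀ u v, B (t u) (t v) = B u v)
    (hn : ∀ w, x w = w → y w = w → t w = w → (∀ w', x w' = w' → y w' = w' → t w' = w' → B w w' = 0) → w = 0)
    {v : V} (hx : x v = v) (hy : y v = v) : sv x t v = 0 := by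
  obtain ⟨e1, e2, e3⟩ := h.s_fix hx hy
  refine hn _ e1 e2 e3 fun w wx wy wt => ?_
  have hpow : ∀ i : ℕ, B ((x ^ i) (t v)) w = B v w := by
    intro i
    induction i with
    | zero =>
      show B (t v) w = B v w
      conv_lhs => rw [← wt]
      exact hBt v w
    | succ i ih =>
      have h1 : (x ^ (i + 1)) (t v) = x ((x ^ i) (t v)) := (app_pow i (t v)).symm
      rw [h1, ← ih]
      conv_lhs => rw [← wx]
      exact hBx _ w
  unfold sv
  rw [map_add, map_sum, LinearMap.add_apply, LinearMap.sum_apply, Finset.sum_congr rfl fun i _ => hpow i,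
    Finset.sum_const, Finset.card_range, nsmul_eq_mul]
  have h12 : (1 : K) + ((11 : ℕ) : K) = 0 := by
    push_cast
    linear_combination 4 * h3
  linear_combination (B v w) * h12

end

/-- the cube of a sum of commuting elements in characteristic three -/
theorem cube_add {A : Type*} [Ring A] (h3 : (3 : A) = 0) {a b : A} (hab : Commute a b) :
    (a + b) ^ 3 = a ^ 3 + b ^ 3 := by
  have e : (a + b) ^ 3 = a ^ 3 + b ^ 3 + (3 : A) * (a * a * b + a * b * b) := by
    have h1 : b * a = a * b := hab.symm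
    have h2 : b * (a * b) = a * (b * b) := by rw [← mul_assoc, h1, mul_assoc]
    have h7 : (3 : A) = 1 + 1 + 1 := by norm_num
    rw [h7]
    simp only [pow_succ, pow_zero, one_mul, mul_add, add_mul, mul_assoc, h1, h2]
    abel
  rw [e, h3, zero_mul, add_zero]

section
variable {V : Type*} [AddCommGroup V] [Module (ZMod 3) V]

/-- the Frobenius permutation `b_i ↦ b_{3 i}` of `b_1, b_2, b_3, b_4` -/
def cc : Fin 4 → Fin 4 := ![2, 0, 3, 1]

theorem three_end : (3 : Module.End (ZMod 3) V) = 0 := by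
  ext v
  have h1 : (3 : Module.End (ZMod 3) V) = ((3 : ℕ) : Module.End (ZMod 3) V) := rfl
  have h2 : ((3 : ℕ) : ZMod 3) = 0 := rfl
  rw [h1, Module.End.natCast_apply, ← Nat.cast_smul_eq_nsmul (ZMod 3), h2, zero_smul]
  rfl

theorem smul_cube (a : ZMod 3) (A : Module.End (ZMod 3) V) : (a • A) ^ 3 = a • A ^ 3 := by
  have h : a ^ 3 = a := by revert a; decide
  rw [smul_pow, h]

theorem Fin4_sum {M : Type*} [AddCommMonoid M] (f : Fin 4 → M) : ∑ i, f i = f 0 + f 1 + f 2 + f 3 :=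
  Fin.sum_univ_four f

/-- the cube of a combination of commuting endomorphisms -/
theorem cube_comb (A : Fin 4 → Module.End (ZMod 3) V) (hc : ∀ i j, Commute (A i) (A j))
    (h3 : ∀ i, A i ^ 3 = A (cc i)) (a : Fin 4 → ZMod 3) :
    (∑ i, a i • A i) ^ 3 = ∑ i, a i • A (cc i) := by
  have hs : ∀ i j, Commute (a i • A i) (a j • A j) := fun i j => ((hc i j).smul_left _).smul_right _
  rw [Fin4_sum, Fin4_sum, cube_add three_end (((hs 0 3).add_left (hs 1 3)).add_left (hs 2 3)),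
    cube_add three_end ((hs 0 2).add_left (hs 1 2)), cube_add three_end (hs 0 1)]
  simp only [smul_cube, h3]

/-- a vector acting as the cube of a fixed vector is fixed -/
theorem cube_fix (ad : V →ₗ[ZMod 3] Module.End (ZMod 3) V) (hz : ∀ u, ad u = 0 → u = 0) (g : V ≃ₗ[ZMod 3] V)
    (hg : ∀ u v, g (ad u v) = ad (g u) (g v)) {w w' : V} (hw : g w = w) (h : ad w ^ 3 = ad w') : g w' = w' := by
  have h1 : ad (g w' - w') = 0 := by
    rw [map_sub, sub_eq_zero]
    ext v
    obtain ⟨v, rfl⟩ := g.surjective v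
    have e : ∀ u, g (ad w u) = ad w (g u) := fun u => by rw [hg, hw]
    have e3 : ∀ u, (ad w ^ 3) u = ad w (ad w (ad w u)) := fun u => by
      rw [pow_succ, pow_two]; rfl
    rw [← hg, ← h, e3, e3, e, e, e]
  exact sub_eq_zero.1 (hz _ h1)

theorem check : ∀ a b c d : ZMod 3, a * d + b * c = 0 → (a + d) * (b + c) = 0 → a * a + b * b + c * c + d * d = 0 →
    a = 0 ∧ b = 0 ∧ c = 0 ∧ d = 0 := by decide

/-- the data of the case `y ~ y₀` -/
structure Data (x y : V ≃ₗ[ZMod 3] V) (ad : V →ₗ[ZMod 3] Module.End (ZMod 3) V) (B : V →ₗ[ZMod 3] V →ₗ[ZMod 3] ZMod 3)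
    (b : Fin 4 → V) : Prop where
  cen : ∀ u, ad u = 0 → u = 0
  span : ∀ v, x v = v → y v = v → ∃ a : Fin 4 → ZMod 3, v = ∑ i, a i • b i
  com : ∀ i j, Commute (ad (b i)) (ad (b j))
  cube : ∀ i, ad (b i) ^ 3 = ad (b (cc i))
  val : ∀ i j, B (b i) (b j) = if i.val + j.val = 3 then -1 else 0

variable {x y t : V ≃ₗ[ZMod 3] V} {ad : V →ₗ[ZMod 3] Module.End (ZMod 3) V} {B : V →ₗ[ZMod 3] V →ₗ[ZMod 3] ZMod 3}
  {b : Fin 4 → V}

theorem Data.B_comb (D : Data x y ad B b) (a c : Fin 4 → ZMod 3) :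
    B (∑ i, a i • b i) (∑ i, c i • b i) = -(a 0 * c 3 + a 1 * c 2 + a 2 * c 1 + a 3 * c 0) := by
  simp only [Fin4_sum, map_add, map_smul, LinearMap.add_apply, LinearMap.smul_apply, D.val, smul_eq_mul]
  simp
  ring

/-- the `[3]`-power of a combination -/
theorem Data.cub (D : Data x y ad B b) (a : Fin 4 → ZMod 3) :
    ad (∑ i, a i • b i) ^ 3 = ad (∑ i, a i • b (cc i)) := by
  rw [map_sum, map_sum]
  simp only [map_smul]
  exact cube_comb (fun i => ad (b i)) D.com D.cube a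

/-- **the form is nondegenerate on the fixed vectors** -/
theorem Data.nondeg (D : Data x y ad B b) (hx : ∀ u v, x (ad u v) = ad (x u) (x v))
    (hy : ∀ u v, y (ad u v) = ad (y u) (y v)) (ht : ∀ u v, t (ad u v) = ad (t u) (t v)) (w : V) (wx : x w = w)
    (wy : y w = w) (wt : t w = w) (h0 : ∀ w', x w' = w' → y w' = w' → t w' = w' → B w w' = 0) : w = 0 := by
  have key : ∀ a : Fin 4 → ZMod 3, x (∑ i, a i • b i) = ∑ i, a i • b i → y (∑ i, a i • b i) = ∑ i, a i • b i →
      t (∑ i, a i • b i) = ∑ i, a i • b i → x (∑ i, ![a 1, a 3, a 0, a 2] i • b i) = ∑ i, ![a 1, a 3, a 0, a 2] i • b i ∧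
      y (∑ i, ![a 1, a 3, a 0, a 2] i • b i) = ∑ i, ![a 1, a 3, a 0, a 2] i • b i ∧
      t (∑ i, ![a 1, a 3, a 0, a 2] i • b i) = ∑ i, ![a 1, a 3, a 0, a 2] i • b i := by
    intro a e1 e2 e3
    have e : ∑ i, a i • b (cc i) = ∑ i, ![a 1, a 3, a 0, a 2] i • b i := by
      rw [Fin4_sum, Fin4_sum]
      show a 0 • b 2 + a 1 • b 0 + a 2 • b 3 + a 3 • b 1 = a 1 • b 0 + a 3 • b 1 + a 0 • b 2 + a 2 • b 3
      abel
    rw [← e]
    exact ⟨cube_fix ad D.cen x hx e1 (D.cub a), cube_fix ad D.cen y hy e2 (D.cub a), cube_fix ad D.cen t ht e3 (D.cub a)⟩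
  obtain ⟨a, rfl⟩ := D.span w wx wy
  obtain ⟨f1, f2, f3⟩ := key a wx wy wt
  obtain ⟨g1, g2, g3⟩ := key _ f1 f2 f3
  have k0 := h0 _ wx wy wt
  have k1 := h0 _ f1 f2 f3
  have k2 := h0 _ g1 g2 g3
  rw [D.B_comb] at k0 k1 k2
  simp only [Matrix.cons_val] at k1 k2
  have q0 : a 0 * a 3 + a 1 * a 2 = 0 := by
    have h3 : (3 : ZMod 3) = 0 := rfl
    linear_combination (a 0 * a 3 + a 1 * a 2) * h3 + k0
  have q1 : (a 0 + a 3) * (a 1 + a 2) = 0 := by linear_combination - k1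
  have q2 : a 0 * a 0 + a 1 * a 1 + a 2 * a 2 + a 3 * a 3 = 0 := by linear_combination - k2
  obtain ⟨z0, z1, z2, z3⟩ := check _ _ _ _ q0 q1 q2
  rw [Fin4_sum, z0, z1, z2, z3]
  simp

/-- **box Q**: the orbit sums of the vectors fixed by `x, y` vanish -/
theorem Data.sv_zero (D : Data x y ad B b) (h : Rel x y t) (hx : ∀ u v, x (ad u v) = ad (x u) (x v))
    (hy : ∀ u v, y (ad u v) = ad (y u) (y v)) (ht : ∀ u v, t (ad u v) = ad (t u) (t v))
    (hBx : ∀ u v, B (x u) (x v) = B u v) (hBt : ∀ u v, B (t u) (t v) = B u v)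
    {v : V} (vx : x v = v) (vy : y v = v) : sv x t v = 0 :=
  sig_zero h rfl B hBx hBt (D.nondeg hx hy ht) vx vy

end

end Cfsg.Agent.H65.E8L
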