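import Cfsg.Agent.H65.E8L.Chk
import Cfsg.Agent.H788.E83.Mat
import Cfsg.Agent.H908.E8L.BConj

/-!
# The vectors fixed by `x₀ = φ₂(Mo)` and `y₀ = φ₂(Fr) φ₁(Fr)` (helper65, S5925, box Q)

`span`: they are combinations of four explicit vectors `b_1, ..., b_4` (the powers of `Fr` in `sl₅(E₁)`).
-/

set_option autoImplicit false
set_option linter.unusedSectionVars false

namespace Cfsg.Agent.H65.E8L.Span

open Cfsg Cfsg.Lie Cfsg.Agent.ChevalleyStructure.SparseEng Matrix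
open Cfsg.Agent.H65.E8L.Eng Cfsg.Agent.H65.E8L.Dat Cfsg.Agent.H65.E8L.Chk
open Cfsg.Agent.H238.E8 Cfsg.Agent.H992.E8X
open Cfsg.Agent.H788.E83 (Lt ev tv ev_cons wx wy Ax Ay Ax_eq Ay_eq)

/-- the matrix of a word -/
noncomputable def MW (w : List (ℕ × ℕ)) : Matrix chevE8.Idx chevE8.Idx (ZMod 3) :=
  chevE8.wordMat (ZMod 3) (w.map fun p => (p.1, (p.2 : ZMod 3)))

theorem spv_one (k : ℕ) : spv [(k, 1)] = bv k := by
  rw [spv_cons, spv_nil, add_zero, Nat.cast_one, one_smul]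

theorem col_of {w : List (ℕ × ℕ)} {T : List (List (ℕ × ℕ))} {k : ℕ} (h : colOK w T k = true) :
    MW w *ᵥ bv k = spv (g T k) := by
  have h1 := eqL_eq h
  rw [← h1, spv_appW, spv_one]
  rfl

theorem all_of {p : ℕ → Bool} {a n : ℕ} (h : ((List.range' a n).all p) = true) {k : ℕ} (h1 : a ≤ k) (h2 : k < a + n) :
    p k = true := List.all_eq_true.1 h k (List.mem_range'_1.2 ⟨h1, h2⟩)

theorem colX {k : ℕ} (hk : k < 248) : MW wX *ᵥ bv k = spv (g tX k) := by
  apply col_of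
  by_cases h0 : k < 40
  · exact all_of x0 (by omega) (by omega)
  by_cases h1 : k < 92
  · exact all_of x1 (by omega) (by omega)
  by_cases h2 : k < 144
  · exact all_of x2 (by omega) (by omega)
  by_cases h3 : k < 196
  · exact all_of x3 (by omega) (by omega)
  · exact all_of x4 (by omega) (by omega)

theorem mem_l0 {k : ℕ} (h : inL k = true) : k ∈ l0 := by
  obtain ⟨a, ha, h1⟩ := List.any_eq_true.1 h
  rw [← Nat.eq_of_beq_eq_true h1]
  exact ha

theorem colY {k : ℕ} (hk : k ∈ l0) : MW wY *ᵥ bv k = spv (g tY k) := by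
  apply col_of
  rw [← List.take_append_drop 24 l0, List.mem_append] at hk
  rcases hk with h | h
  · exact List.all_eq_true.1 y0 k h
  · exact List.all_eq_true.1 y1 k h

theorem two_smul_add (k : ℕ) (l : List (ℕ × ℕ)) : spv (ins k 2 l) = spv l - bv k := by
  rw [spv_ins]
  have h : ((2 : ℕ) : ZMod 3) = -1 := rfl
  rw [h, neg_smul, one_smul]
  abel

theorem lt_of {l : List (ℕ × ℕ)} (h : ltOK l = true) : ∀ a ∈ l, a.1 < 248 := fun a ha =>
  of_decide_eq_true (List.all_eq_true.1 h a ha)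

/-- a linear map on a sum of basis vectors -/
theorem lin_sum (f : V →ₗ[ZMod 3] V) (v : V) : f v = ∑ i, v i • f (bv (cd i)) := by
  conv_lhs => rw [eq_sum v]
  rw [map_sum]
  simp only [map_smul]

theorem lin_sub (f : V →ₗ[ZMod 3] V) (M : Matrix chevE8.Idx chevE8.Idx (ZMod 3)) (v : V) :
    f (M *ᵥ v - v) = ∑ i, v i • f (M *ᵥ bv (cd i) - bv (cd i)) := by
  have h : f (M *ᵥ v - v) = (f ∘ₗ (M.mulVecLin - LinearMap.id)) v := rfl
  rw [h, lin_sum]
  rfl

/-- **outside `sl₅ + sl₅`** -/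
theorem zero_of_fix {v : V} (hx : MW wX *ᵥ v = v) (j : chevE8.Idx) (hj : inL (cd j) = false) : v j = 0 := by
  have h1 : R (g tR) (MW wX *ᵥ v - v) = 0 := by rw [hx, sub_self, map_zero]
  have h2 : R (g tR) (MW wX *ᵥ v - v) = ∑ i, v i • (if inL (cd i) then (0 : V) else bv (cd i)) := by
    rw [lin_sub]
    refine Finset.sum_congr rfl fun i _ => congrArg (fun u : V => v i • u) ?_
    have h4 := List.all_eq_true.1 c1 (cd i) (List.mem_range.2 (cd_lt i))
    unfold ok1 at h4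
    rw [Bool.and_eq_true] at h4
    have h5 := eqL_eq h4.2
    have h6 := spv_comb (g tR) _ [] (lt_of h4.1)
    rw [spv_nil, add_zero, two_smul_add, ← colX (cd_lt i)] at h6
    rw [← h6, h5]
    split_ifs
    · rfl
    · exact spv_one _
  rw [h1] at h2
  have h3 := congrFun h2 j
  rw [Finset.sum_apply, Finset.sum_eq_single j] at h3
  · rw [Pi.smul_apply, hj, if_neg (by decide), bv_cd, Pi.single_eq_same, smul_eq_mul, mul_one] at h3
    exact h3.symm
  · intro b _ hb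
    rw [Pi.smul_apply]
    split_ifs
    · rw [Pi.zero_apply, smul_zero]
    · rw [bv_cd, Pi.single_eq_of_ne hb.symm, smul_zero]
  · intro h
    exact absurd (Finset.mem_univ j) h

/-- the vectors `b_1, ..., b_4` -/
def b (i : Fin 4) : V := spv (bl.getD i.val [])

/-- the coefficients -/
def cf (s : ℕ) (i : Fin 4) : ℕ := ((nf s).getD i.val (0, 0)).2

theorem nf_eq (s : ℕ) : nf s = [(0, cf s 0), (1, cf s 1), (2, cf s 2), (3, cf s 3)] := by
  unfold cf nf
  split_ifs <;> rfl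

theorem comb_bl (s : ℕ) : spv (comb (g bl) (nf s) []) = ∑ i : Fin 4, ((cf s i : ℕ) : ZMod 3) • b i := by
  rw [nf_eq, spv_comb _ _ _ (by simp), spv_nil, add_zero, spv_cons, spv_cons, spv_cons, spv_cons, spv_nil, add_zero,
    map_add, map_add, map_add, map_smul, map_smul, map_smul, map_smul, R_bv _ (by norm_num), R_bv _ (by norm_num),
    R_bv _ (by norm_num), R_bv _ (by norm_num), Fin.sum_univ_four, add_assoc, add_assoc]
  rfl

/-- **`fixB x₀ y₀` is spanned by `b_1, ..., b_4`**, matrix form -/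
theorem span_mat {v : V} (hx : MW wX *ᵥ v = v) (hy : MW wY *ᵥ v = v) :
    ∃ a : Fin 4 → ZMod 3, v = ∑ i, a i • b i := by
  have h0 := fun j hj => zero_of_fix hx j hj
  have h1 : R (g t1) (MW wX *ᵥ v - v) + R (g t2) (MW wY *ᵥ v - v) = 0 := by
    rw [hx, hy, sub_self, map_zero, map_zero, add_zero]
  have h2 : R (g t1) (MW wX *ᵥ v - v) + R (g t2) (MW wY *ᵥ v - v) = ∑ i, v i • spv (g t3 (cd i)) := by
    rw [lin_sub (R (g t1)), lin_sub (R (g t2)), ← Finset.sum_add_distrib]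
    refine Finset.sum_congr rfl fun i _ => ?_
    rw [← smul_add]
    by_cases hi : inL (cd i) = true
    · refine congrArg (fun u : V => v i • u) ?_
      have m := mem_l0 hi
      have h4 := List.all_eq_true.1 c2 (cd i) m
      unfold ok2 at h4
      rw [Bool.and_eq_true] at h4
      have h5 := eqL_eq h4.2
      have h7 := List.all_eq_true.1 c1 (cd i) (List.mem_range.2 (cd_lt i))
      unfold ok1 at h7
      rw [Bool.and_eq_true] at h7
      rw [← h5, spv_comb _ _ _ (lt_of h7.1), spv_comb _ _ _ (lt_of h4.1), two_smul_add, two_smul_add, spv_nil,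
        add_zero, ← colX (cd_lt i), ← colY m]
    · rw [h0 i (by simpa using hi), zero_smul, zero_smul]
  have h3 : v = ∑ i, v i • (bv (cd i) - spv (g t3 (cd i))) := by
    conv_lhs => rw [eq_sum v]
    simp only [smul_sub]
    rw [Finset.sum_sub_distrib, ← h2, h1, sub_zero]
  refine ⟨fun k => ∑ i, v i * ((cf (cd i) k : ℕ) : ZMod 3), ?_⟩
  conv_lhs => rw [h3]
  simp only [Finset.sum_smul]
  rw [Finset.sum_comm]
  refine Finset.sum_congr rfl fun i _ => ?_
  by_cases hi : inL (cd i) = true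
  · have h4 := eqL_eq (List.all_eq_true.1 c3 (cd i) (mem_l0 hi))
    have h5 : bv (cd i) - spv (g t3 (cd i)) = ∑ k : Fin 4, ((cf (cd i) k : ℕ) : ZMod 3) • b k := by
      rw [← comb_bl, ← h4, spv_ins, spv_comb _ _ _ (by simp), spv_nil, add_zero, spv_cons, spv_nil, add_zero, map_smul,
        R_bv _ (by norm_num)]
      have h6 : ((2 : ℕ) : ZMod 3) = -1 := rfl
      rw [h6, Nat.cast_one, one_smul, neg_smul, one_smul, sub_eq_add_neg]
    rw [h5, Finset.smul_sum]
    simp only [smul_smul]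
  · rw [h0 i (by simpa using hi)]
    simp

/-! ### the group elements -/

theorem coe_ph {φ : SpecialLinearGroup (Fin 5) (ZMod 3) →* ↥(chevE8.group (ZMod 3))} {rt : Fin 5 → Fin 5 → ℕ}
    {sg : Fin 5 → Fin 5 → ℤ}
    (hφ : ∀ i j (hij : i ≠ j) c, φ (SpecialLinearGroup.transvection hij c) = X (rt i j) ((sg i j : ZMod 3) * c))
    (w : List Lt) (hw : ∀ l ∈ w, l.1 ≠ l.2.1) :
    (((φ (ev w) : ↥(chevE8.group (ZMod 3))) : GL chevE8.Idx (ZMod 3)) : Matrix chevE8.Idx chevE8.Idx (ZMod 3)) =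
      chevE8.wordMat (ZMod 3) (w.map fun l => (rt l.1 l.2.1, (sg l.1 l.2.1 : ZMod 3) * l.2.2)) := by
  induction w with
  | nil =>
    have h : ev ([] : List Lt) = 1 := rfl
    rw [h, map_one]
    rfl
  | cons l w ih =>
    have hl := hw l List.mem_cons_self
    rw [ev_cons, map_mul]
    show ((φ (tv l) : GL chevE8.Idx (ZMod 3)) : Matrix chevE8.Idx chevE8.Idx (ZMod 3)) *
      ((φ (ev w) : GL chevE8.Idx (ZMod 3)) : Matrix chevE8.Idx chevE8.Idx (ZMod 3)) = _
    rw [ih fun l' h' => hw l' (List.mem_cons_of_mem _ h')]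
    have e : tv l = SpecialLinearGroup.transvection hl l.2.2 := by
      unfold tv
      rw [dif_pos hl]
    rw [e, hφ]
    simp only [ChevalleyDatum.wordMat, List.map_cons, List.prod_cons]
    rfl

theorem Mo_eq : Cfsg.Agent.H908.E8L.Mo = Ax := Subtype.ext (Ax_eq.symm)

theorem Fr_eq : Cfsg.Agent.H908.E8L.Fr = Ay := Subtype.ext (Ay_eq.symm)

/-- `x₀` -/
noncomputable def X0 : ↥(chevE8.group (ZMod 3)) := ph2 (ZMod 3) Cfsg.Agent.H908.E8L.Mo

/-- `y₀` -/
noncomputable def Y0 : ↥(chevE8.group (ZMod 3)) :=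
  ph2 (ZMod 3) Cfsg.Agent.H908.E8L.Fr * ph1 (ZMod 3) Cfsg.Agent.H908.E8L.Fr

theorem X0_mat : ((X0 : GL chevE8.Idx (ZMod 3)) : Matrix chevE8.Idx chevE8.Idx (ZMod 3)) = MW wX := by
  unfold X0
  rw [Mo_eq]
  unfold Ax
  rw [coe_ph (fun i j hij c => ph2_tv (ZMod 3) hij c) wx (by decide)]
  unfold MW
  congr 1

theorem Y0_mat : ((Y0 : GL chevE8.Idx (ZMod 3)) : Matrix chevE8.Idx chevE8.Idx (ZMod 3)) = MW wY := by
  unfold Y0
  rw [Fr_eq]
  unfold Ay
  show ((ph2 (ZMod 3) (ev wy) : GL chevE8.Idx (ZMod 3)) : Matrix chevE8.Idx chevE8.Idx (ZMod 3)) *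
    ((ph1 (ZMod 3) (ev wy) : GL chevE8.Idx (ZMod 3)) : Matrix chevE8.Idx chevE8.Idx (ZMod 3)) = _
  rw [coe_ph (fun i j hij c => ph2_tv (ZMod 3) hij c) wy (by decide),
    coe_ph (fun i j hij c => ph1_tv (ZMod 3) hij c) wy (by decide)]
  unfold MW ChevalleyDatum.wordMat
  rw [← List.prod_append, ← List.map_append]
  congr 2

/-- **`fixB x₀ y₀` is spanned by `b_1, ..., b_4`** -/
theorem span {v : V} (hx : ((X0 : GL chevE8.Idx (ZMod 3)) : Matrix chevE8.Idx chevE8.Idx (ZMod 3)) *ᵥ v = v)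
    (hy : ((Y0 : GL chevE8.Idx (ZMod 3)) : Matrix chevE8.Idx chevE8.Idx (ZMod 3)) *ᵥ v = v) :
    ∃ a : Fin 4 → ZMod 3, v = ∑ i, a i • b i := by
  rw [X0_mat] at hx
  rw [Y0_mat] at hy
  exact span_mat hx hy

end Cfsg.Agent.H65.E8L.Span
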