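import Cfsg.Agent.H65.E8L.AdCol0
import Cfsg.Agent.H65.E8L.AdCol1
import Cfsg.Agent.H65.E8L.AdCol2
import Cfsg.Agent.H65.E8L.AdCol3
import Cfsg.Agent.H65.E8L.Span
import Cfsg.Agent.H65.E8L.Sig

/-!
# `(ad b_i)³ = ad b_{3i}` and `[b_i, b_j] = 0` (helper65, S5925, box Q)
-/

set_option autoImplicit false
set_option linter.unusedSectionVars false
set_option maxRecDepth 100000

namespace Cfsg.Agent.H65.E8L.Cube

open Cfsg Cfsg.Lie Matrix
open Cfsg.Agent.H65.E8L Cfsg.Agent.H65.E8L.Eng Cfsg.Agent.H65.E8L.Dat Cfsg.Agent.H65.E8L.AdDat Cfsg.Agent.H65.E8L.Chk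
open Cfsg.Agent.H65.E8L.AdEng Cfsg.Agent.H65.E8L.AdChk Cfsg.Agent.H65.E8L.Ad

/-- a linear map is determined by the basis vectors -/
theorem ext_bv {f h : V →ₗ[ZMod 3] V} (e : ∀ k < 248, f (bv k) = h (bv k)) : f = h := by
  apply LinearMap.ext
  intro v
  rw [Span.lin_sum f, Span.lin_sum h]
  exact Finset.sum_congr rfl fun i _ => by rw [e _ (cd_lt i)]

theorem adE_eq_R {b : List (ℕ × ℕ)} {T : List (List (ℕ × ℕ))} (h : ∀ k < 248, colB b T k = true) :
    adE (spv b) = R (g T) := by
  refine ext_bv fun k hk => ?_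
  have h1 := h k hk
  unfold colB at h1
  split at h1
  · rename_i m hm
    rw [adE_adB hk hm, R_bv _ hk, eqL_eq h1]
  · exact absurd h1 (by decide)

theorem R_cube {T T' : List (List (ℕ × ℕ))} (h : ((List.range 248).all (cubOK T T')) = true) :
    R (g T) ^ 3 = R (g T') := by
  refine ext_bv fun k hk => ?_
  have h1 := List.all_eq_true.1 h k (List.mem_range.2 hk)
  unfold cubOK at h1
  rw [Bool.and_eq_true, Bool.and_eq_true] at h1
  obtain ⟨h2, h3, h4⟩ := h1
  have e2 := spv_comb (g T) (g T k) [] (Span.lt_of h2)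
  have e3 := spv_comb (g T) _ [] (Span.lt_of h3)
  rw [spv_nil, add_zero] at e2 e3
  have e : (R (g T) ^ 3) (bv k) = R (g T) (R (g T) (R (g T) (bv k))) := by
    rw [pow_succ, pow_two]; rfl
  rw [e, R_bv _ hk, R_bv _ hk, ← e2, ← e3, eqL_eq h4]

theorem R_com {T : List (List (ℕ × ℕ))} {b : List (ℕ × ℕ)} (h : comOK T b = true) : R (g T) (spv b) = 0 := by
  unfold comOK at h
  rw [Bool.and_eq_true] at h
  have e := spv_comb (g T) b [] (Span.lt_of h.1)
  rw [spv_nil, add_zero, eqL_eq h.2, spv_nil] at e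
  exact e.symm

theorem r0 : adE (Span.b 0) = R (g tb0) := adE_eq_R fun k hk => by
  by_cases h0 : k < 83
  · exact Span.all_of c0a (by omega) (by omega)
  by_cases h1 : k < 166
  · exact Span.all_of c0b (by omega) (by omega)
  · exact Span.all_of c0c (by omega) (by omega)

theorem r1 : adE (Span.b 1) = R (g tb1) := adE_eq_R fun k hk => by
  by_cases h0 : k < 83
  · exact Span.all_of c1a (by omega) (by omega)
  by_cases h1 : k < 166
  · exact Span.all_of c1b (by omega) (by omega)
  · exact Span.all_of c1c (by omega) (by omega)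

theorem r2 : adE (Span.b 2) = R (g tb2) := adE_eq_R fun k hk => by
  by_cases h0 : k < 83
  · exact Span.all_of c2a (by omega) (by omega)
  by_cases h1 : k < 166
  · exact Span.all_of c2b (by omega) (by omega)
  · exact Span.all_of c2c (by omega) (by omega)

theorem r3 : adE (Span.b 3) = R (g tb3) := adE_eq_R fun k hk => by
  by_cases h0 : k < 83
  · exact Span.all_of c3a (by omega) (by omega)
  by_cases h1 : k < 166
  · exact Span.all_of c3b (by omega) (by omega)
  · exact Span.all_of c3c (by omega) (by omega)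

/-- **the cubes** -/
theorem adE_cube (i : Fin 4) : adE (Span.b i) ^ 3 = adE (Span.b (cc i)) := by
  fin_cases i
  · show adE (Span.b 0) ^ 3 = adE (Span.b 2)
    rw [r0, r2, R_cube q0]
  · show adE (Span.b 1) ^ 3 = adE (Span.b 0)
    rw [r1, r0, R_cube q1]
  · show adE (Span.b 2) ^ 3 = adE (Span.b 3)
    rw [r2, r3, R_cube q2]
  · show adE (Span.b 3) ^ 3 = adE (Span.b 1)
    rw [r3, r1, R_cube q3]

/-- **the `b_i` commute** -/
theorem adE_com (i j : Fin 4) : Commute (adE (Span.b i)) (adE (Span.b j)) := by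
  obtain ⟨m00, m01, m02, m03, m11, m12, m13, m22, m23, m33⟩ := m
  have k01 : Commute (adE (Span.b 0)) (adE (Span.b 1)) := commute_of (by rw [r0]; exact R_com m01)
  have k02 : Commute (adE (Span.b 0)) (adE (Span.b 2)) := commute_of (by rw [r0]; exact R_com m02)
  have k03 : Commute (adE (Span.b 0)) (adE (Span.b 3)) := commute_of (by rw [r0]; exact R_com m03)
  have k12 : Commute (adE (Span.b 1)) (adE (Span.b 2)) := commute_of (by rw [r1]; exact R_com m12)
  have k13 : Commute (adE (Span.b 1)) (adE (Span.b 3)) := commute_of (by rw [r1]; exact R_com m13)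
  have k23 : Commute (adE (Span.b 2)) (adE (Span.b 3)) := commute_of (by rw [r2]; exact R_com m23)
  fin_cases i <;> fin_cases j
  · exact Commute.refl _
  · exact k01
  · exact k02
  · exact k03
  · exact k01.symm
  · exact Commute.refl _
  · exact k12
  · exact k13
  · exact k02.symm
  · exact k12.symm
  · exact Commute.refl _
  · exact k23
  · exact k03.symm
  · exact k13.symm
  · exact k23.symm
  · exact Commute.refl _

end Cfsg.Agent.H65.E8L.Cube
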