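import Cfsg.Agent.H65.E8L.Span
import Cfsg.Agent.H65.E8L.Sig
import Cfsg.Agent.H114.E8L.Stmt

/-!
# S5925, box Q: the orbit sums of the vectors fixed by `x₀, y₀` vanish (helper65)
-/

set_option autoImplicit false
set_option linter.unusedSectionVars false

namespace Cfsg.Agent.H65.E8L.Fin

open Cfsg Cfsg.Lie Matrix
open Cfsg.Agent.H791.E8L Cfsg.Agent.H65.E8L

/-- the module -/
abbrev V : Type := chevE8.Idx → ZMod 3

abbrev G3 : Type := ↥(chevE8.group (ZMod 3))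

/-- the matrix of an element -/
def mt (g : G3) : Matrix chevE8.Idx chevE8.Idx (ZMod 3) := ((g : GL chevE8.Idx (ZMod 3)) : Matrix chevE8.Idx chevE8.Idx (ZMod 3))

theorem mt_mul (g h : G3) : mt (g * h) = mt g * mt h := rfl

theorem mt_one : mt 1 = 1 := rfl

/-- the linear equivalence of an element -/
def le (g : G3) : V ≃ₗ[ZMod 3] V where
  toFun v := mt g *ᵥ v
  invFun v := mt g⁻¹ *ᵥ v
  map_add' u v := Matrix.mulVec_add _ u v
  map_smul' c v := Matrix.mulVec_smul _ c v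
  left_inv v := by
    show mt g⁻¹ *ᵥ (mt g *ᵥ v) = v
    rw [Matrix.mulVec_mulVec, ← mt_mul, inv_mul_cancel, mt_one, Matrix.one_mulVec]
  right_inv v := by
    show mt g *ᵥ (mt g⁻¹ *ᵥ v) = v
    rw [Matrix.mulVec_mulVec, ← mt_mul, mul_inv_cancel, mt_one, Matrix.one_mulVec]

theorem le_apply (g : G3) (v : V) : le g v = mt g *ᵥ v := rfl

/-- the action of `E₈(3)` by linear equivalences -/
def actE : G3 →* (V ≃ₗ[ZMod 3] V) where
  toFun := le
  map_one' := by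
    apply LinearEquiv.ext
    intro v
    rw [le_apply, mt_one, Matrix.one_mulVec]
    rfl
  map_mul' g h := by
    apply LinearEquiv.ext
    intro v
    show mt (g * h) *ᵥ v = mt g *ᵥ (mt h *ᵥ v)
    rw [mt_mul, Matrix.mulVec_mulVec]

theorem actE_apply (g : G3) (v : V) : actE g v = mt g *ᵥ v := rfl

/-- **the orbit sums vanish**, from the data -/
theorem sv_of {ad : V →ₗ[ZMod 3] Module.End (ZMod 3) V} {B : V →ₗ[ZMod 3] V →ₗ[ZMod 3] ZMod 3}
    (hcen : ∀ u, ad u = 0 → u = 0) (hcom : ∀ i j, Commute (ad (Span.b i)) (ad (Span.b j)))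
    (hcube : ∀ i, ad (Span.b i) ^ 3 = ad (Span.b (cc i)))
    (hval : ∀ i j, B (Span.b i) (Span.b j) = if i.val + j.val = 3 then -1 else 0)
    (had : ∀ (g : G3) u v, actE g (ad u v) = ad (actE g u) (actE g v))
    (hB : ∀ (g : G3) u v, B (actE g u) (actE g v) = B u v)
    {t : G3} (h : Rel Span.X0 Span.Y0 t) {v : V} (hx : actE Span.X0 v = v) (hy : actE Span.Y0 v = v) :
    sv (actE Span.X0) (actE t) v = 0 := by
  have D : Data (actE Span.X0) (actE Span.Y0) ad B Span.b := ⟨hcen, fun v h1 h2 => Span.span h1 h2, hcom, hcube, hval⟩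
  exact D.sv_zero (h.map actE) (had _) (had _) (had _) (hB _) (hB _) hx hy

theorem x0_eq : Cfsg.Agent.H114.E8L.x0 = Span.X0 := rfl

theorem y0_eq : Cfsg.Agent.H114.E8L.y0 = Span.Y0 := rfl

/-- **box Q**: for all `t` with the relations of `PSL₂(11)` the orbit sums of the vectors fixed by `x₀, y₀` vanish -/
theorem sig0_of {ad : V →ₗ[ZMod 3] Module.End (ZMod 3) V} {B : V →ₗ[ZMod 3] V →ₗ[ZMod 3] ZMod 3}
    (hcen : ∀ u, ad u = 0 → u = 0) (hcom : ∀ i j, Commute (ad (Span.b i)) (ad (Span.b j)))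
    (hcube : ∀ i, ad (Span.b i) ^ 3 = ad (Span.b (cc i)))
    (hval : ∀ i j, B (Span.b i) (Span.b j) = if i.val + j.val = 3 then -1 else 0)
    (had : ∀ (g : G3) u v, mt g *ᵥ (ad u v) = ad (mt g *ᵥ u) (mt g *ᵥ v))
    (hB : ∀ (g : G3) u v, B (mt g *ᵥ u) (mt g *ᵥ v) = B u v)
    {t : G3} (h : Rel Cfsg.Agent.H114.E8L.x0 Cfsg.Agent.H114.E8L.y0 t) {v : V}
    (hx : Cfsg.Agent.H114.E8L.ac Cfsg.Agent.H114.E8L.x0 v = v)
    (hy : Cfsg.Agent.H114.E8L.ac Cfsg.Agent.H114.E8L.y0 v = v) :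
    v + ∑ i ∈ Finset.range 11, Cfsg.Agent.H114.E8L.ac (Cfsg.Agent.H114.E8L.x0 ^ i) (Cfsg.Agent.H114.E8L.ac t v) = 0 := by
  have h1 := sv_of hcen hcom hcube hval had hB h hx hy
  unfold sv at h1
  rw [← h1]
  refine congrArg (fun u : V => v + u) (Finset.sum_congr rfl fun i _ => ?_)
  rw [← map_pow]
  rfl

end Cfsg.Agent.H65.E8L.Fin
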