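import Cfsg.Agent.H65.E8L.Cube
import Cfsg.Agent.H65.E8L.Fin
import Cfsg.Agent.H365.E83.Form
import Cfsg.Agent.H365.E83.Cen

/-!
# S5925, box Q (helper65): the orbit sums of the vectors fixed by `x₀, y₀` vanish
-/

set_option autoImplicit false
set_option maxRecDepth 100000

namespace Cfsg.Agent.H65.E8L.QBox

open Cfsg Cfsg.Lie Matrix
open Cfsg.Agent.H791.E8L (Rel)
open Cfsg.Agent.H114.E8L (x0 y0 ac)
open Cfsg.Agent.H65.E8L Cfsg.Agent.H65.E8L.Ad

/-- **box Q** from `cen` -/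
theorem sig0_cen (hcen : ∀ u, adE u = 0 → u = 0) {t : Fin.G3} (h : Rel x0 y0 t) {v : Fin.V} (hx : ac x0 v = v)
    (hy : ac y0 v = v) : v + ∑ i ∈ Finset.range 11, ac (x0 ^ i) (ac t v) = 0 :=
  Fin.sig0_of (ad := adE) (B := Cfsg.Agent.H365.E83.Form.kapB) hcen Cube.adE_com Cube.adE_cube
    (fun i j => Cfsg.Agent.H365.E83.Form.kapB_val i j) (fun g u v => adE_group g u v)
    (fun g u v => Cfsg.Agent.H365.E83.Form.kapB_inv g.2 u v) h hx hy

/-- the centre is zero -/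
theorem adE_cen (u : Fin.V) (h : adE u = 0) : u = 0 := by
  apply Cfsg.Agent.H365.E83.Cen.cen
  apply Matrix.ext_of_mulVec_single
  intro k
  rw [Matrix.zero_mulVec]
  exact LinearMap.congr_fun h _

/-- **box Q** -/
theorem sig0 {t : Fin.G3} (h : Rel x0 y0 t) {v : Fin.V} (hx : ac x0 v = v) (hy : ac y0 v = v) :
    v + ∑ i ∈ Finset.range 11, ac (x0 ^ i) (ac t v) = 0 := sig0_cen adE_cen h hx hy

end Cfsg.Agent.H65.E8L.QBox
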